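import Mathlib
import Cfsg.Agent.S5911

/-!
Index-`n` subgroups of symmetric groups: tools for the degree 6 case
(the exotic `S₅` inside `S₆`, conjugacy of the point-free index 6 subgroups).
-/

set_option autoImplicit false

namespace Cfsg.Agent.Helper16.SymIndex

open Equiv Equiv.Perm Cfsg.Agent.S5911

section gen
variable {Y : Type*} [DecidableEq Y]

/-- An involution with the 3-transposition property is a swap or fixed-point-free. -/
theorem swap_or_fpf [Fintype Y] (t : Perm Y) (ht1 : t ≠ 1) (ht2 : t * t = 1)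
    (hp : ∀ y : Perm Y, orderOf (t * (y * t * y⁻¹)) ≤ 3) :
    (∃ a b, a ≠ b ∧ t = swap a b) ∨ ∀ x, t x ≠ x := by
  by_contra hcon
  push_neg at hcon
  obtain ⟨hne, x5, hx5⟩ := hcon
  have htt : ∀ x, t (t x) = x := fun x => by
    have := congrArg (fun f : Perm Y => f x) ht2
    simpa using this
  obtain ⟨x1, hx1⟩ : ∃ x, t x ≠ x := by
    by_contra h
    push_neg at h
    exact ht1 (Equiv.ext h)
  obtain ⟨x2, hx2⟩ : ∃ z, t x1 = z := ⟨_, rfl⟩
  have h21 : t x2 = x1 := by rw [← hx2]; exact htt x1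
  have h12 : x1 ≠ x2 := fun h => hx1 (hx2.trans h.symm)
  obtain ⟨x3, hx3⟩ : ∃ x, t x ≠ swap x1 x2 x := by
    by_contra h
    push_neg at h
    exact hne x1 x2 h12 (Equiv.ext h)
  have h31 : x3 ≠ x1 := by
    intro h
    rw [h, swap_apply_left] at hx3
    exact hx3 hx2
  have h32 : x3 ≠ x2 := by
    intro h
    rw [h, swap_apply_right] at hx3
    exact hx3 h21
  rw [swap_apply_of_ne_of_ne h31 h32] at hx3
  obtain ⟨x4, hx4⟩ : ∃ z, t x3 = z := ⟨_, rfl⟩
  have h43 : t x4 = x3 := by rw [← hx4]; exact htt x3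
  have h34 : x3 ≠ x4 := fun h => hx3 (hx4.trans h.symm)
  have h41 : x4 ≠ x1 := fun h => h32 (by rw [← h43, h, hx2])
  have h42 : x4 ≠ x2 := fun h => h31 (by rw [← h43, h, h21])
  have hu : ∀ (y : Perm Y) (x : Y), (t * (y * t * y⁻¹)) x = t (y (t (y⁻¹ x))) := fun y x => rfl
  have h51 : x5 ≠ x1 := fun h => hx1 (by rw [← h]; exact hx5)
  have h52 : x5 ≠ x2 := fun h => h12 (by rw [← h21, ← h, hx5])
  have h53 : x5 ≠ x3 := fun h => hx3 (by rw [← h]; exact hx5)
  have h54 : x5 ≠ x4 := fun h => h34 (by rw [← h43, ← h, hx5])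
  obtain ⟨y, hy⟩ : ∃ y : Perm Y, y = swap x1 x3 * swap x4 x5 := ⟨_, rfl⟩
  have hy1 : y x1 = x3 := by
    rw [hy, Perm.mul_apply, swap_apply_of_ne_of_ne h41.symm h51.symm, swap_apply_left]
  have hy3 : y x3 = x1 := by
    rw [hy, Perm.mul_apply, swap_apply_of_ne_of_ne h34 h53.symm, swap_apply_right]
  have hy4 : y x4 = x5 := by
    rw [hy, Perm.mul_apply, swap_apply_left, swap_apply_of_ne_of_ne h51 h53]
  have hy2 : y x2 = x2 := by
    rw [hy, Perm.mul_apply, swap_apply_of_ne_of_ne h42.symm h52.symm,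
      swap_apply_of_ne_of_ne h12.symm h32.symm]
  have e1 : (t * (y * t * y⁻¹)) x1 = x5 := by
    rw [hu, Perm.inv_eq_iff_eq.mpr hy3.symm, hx4, hy4, hx5]
  have e5 : (t * (y * t * y⁻¹)) x5 = x2 := by
    rw [hu, Perm.inv_eq_iff_eq.mpr hy4.symm, h43, hy3, hx2]
  have e2 : (t * (y * t * y⁻¹)) x2 = x4 := by
    rw [hu, Perm.inv_eq_iff_eq.mpr hy2.symm, h21, hy1, hx4]
  exact not_ord_le_three _ x1 (by rw [e1]; exact h51) (by rw [e1, e5]; exact h12.symm)
    (by rw [e1, e5, e2]; exact h41) (hp y)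

end gen

/-- If an isomorphism `ψ` of symmetric groups pulls the swaps through `x₀` back to swaps, and
`H` is mapped into the stabiliser of `x₀`, then `H` fixes a point. -/
theorem main_aux' {Ω X : Type*} [DecidableEq Ω] [Fintype X] [DecidableEq X]
    (h5 : 5 ≤ Fintype.card X)
    (ψ : Perm Ω ≃* Perm X) (x₀ : X) (H : Subgroup (Perm Ω))
    (hfixH : ∀ h ∈ H, ψ h x₀ = x₀)
    (hs : ∀ u, u ≠ x₀ → ∃ a b, a ≠ b ∧ ψ.symm (swap x₀ u) = swap a b) :
    ∃ i : Ω, ∀ h ∈ H, h i = i := by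
  have hinj_s : ∀ u v, ψ.symm (swap x₀ u) = ψ.symm (swap x₀ v) → u = v := by
    intro u v h
    have := congrArg (fun f : Perm X => f x₀) (ψ.symm.injective h)
    simpa using this
  have hnc : ∀ u v : X, u ≠ x₀ → v ≠ x₀ → u ≠ v →
      ψ.symm (swap x₀ u) * ψ.symm (swap x₀ v) ≠ ψ.symm (swap x₀ v) * ψ.symm (swap x₀ u) := by
    intro u v hu hv huv hc
    rw [← map_mul, ← map_mul] at hc
    have hc' := ψ.symm.injective hc
    have h2 := congrArg (fun f : Perm X => f x₀) hc'
    simp only [Perm.mul_apply, swap_apply_left] at h2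
    rw [swap_apply_of_ne_of_ne hv (Ne.symm huv), swap_apply_of_ne_of_ne hu huv] at h2
    exact huv h2.symm
  obtain ⟨u1, hu1⟩ := exists_notMem ({x₀} : Finset X) (by rw [Finset.card_singleton]; omega)
  obtain ⟨u2, hu2⟩ := exists_notMem ({x₀, u1} : Finset X)
    (lt_of_le_of_lt Finset.card_le_two (by omega))
  obtain ⟨u3, hu3⟩ := exists_notMem ({x₀, u1, u2} : Finset X)
    (lt_of_le_of_lt Finset.card_le_three (by omega))
  obtain ⟨u4, hu4⟩ := exists_notMem ({x₀, u1, u2, u3} : Finset X)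
    (lt_of_le_of_lt Finset.card_le_four (by omega))
  simp only [Finset.mem_insert, Finset.mem_singleton, not_or] at hu1 hu2 hu3 hu4
  obtain ⟨a, b, hab, hs1⟩ := hs u1 hu1
  obtain ⟨c, d, hcd, hs2⟩ := hs u2 hu2.1
  have hnc12 := hnc u1 u2 hu1 hu2.1 (Ne.symm hu2.2)
  rw [hs1, hs2] at hnc12
  obtain ⟨i, b', c', hib, hic, hbc, e1, e2⟩ : ∃ i b' c', i ≠ b' ∧ i ≠ c' ∧ b' ≠ c' ∧
      ψ.symm (swap x₀ u1) = swap i b' ∧ ψ.symm (swap x₀ u2) = swap i c' := by
    rcases noncomm_cases hab hcd hnc12 with ⟨h, h'⟩ | ⟨h, h'⟩ | ⟨h, h'⟩ | ⟨h, h'⟩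
    · exact ⟨a, b, d, hab, fun hh => hcd (h.trans hh), fun hh => h' hh.symm, hs1,
        by rw [hs2, h]⟩
    · exact ⟨b, a, d, hab.symm, fun hh => hcd (h.trans hh), fun hh => h' hh.symm,
        by rw [hs1, swap_comm], by rw [hs2, h]⟩
    · exact ⟨a, b, c, hab, fun hh => hcd (hh.symm.trans h.symm), fun hh => h' hh.symm, hs1,
        by rw [hs2, h, swap_comm]⟩
    · exact ⟨b, a, c, hab.symm, fun hh => hcd (hh.symm.trans h.symm), fun hh => h' hh.symm,
        by rw [hs1, swap_comm], by rw [hs2, h, swap_comm]⟩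
  have hK : ∀ u, u ≠ x₀ → u ≠ u1 → u ≠ u2 →
      ψ.symm (swap x₀ u) i ≠ i ∨ ψ.symm (swap x₀ u) = swap b' c' := by
    intro u hu h1 h2
    obtain ⟨e, f, hef, hse⟩ := hs u hu
    have n1 := hnc u1 u hu1 hu (Ne.symm h1)
    have n2 := hnc u2 u hu2.1 hu (Ne.symm h2)
    rw [e1, hse] at n1
    rw [e2, hse] at n2
    rw [hse]
    exact key_K hib hic hbc hef n1 n2
  obtain ⟨w, hw0, hw1, hw2, hwi⟩ : ∃ w, w ≠ x₀ ∧ w ≠ u1 ∧ w ≠ u2 ∧
      ψ.symm (swap x₀ w) i ≠ i := by
    rcases hK u3 hu3.1 hu3.2.1 hu3.2.2 with h | h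
    · exact ⟨u3, hu3.1, hu3.2.1, hu3.2.2, h⟩
    · rcases hK u4 hu4.1 hu4.2.1 hu4.2.2.1 with h' | h'
      · exact ⟨u4, hu4.1, hu4.2.1, hu4.2.2.1, h'⟩
      · exact absurd (hinj_s _ _ (h'.trans h.symm)) hu4.2.2.2
  obtain ⟨d', hid, hsw'⟩ : ∃ d', i ≠ d' ∧ ψ.symm (swap x₀ w) = swap i d' := by
    obtain ⟨e, f, hef, hsw⟩ := hs w hw0
    rw [hsw] at hwi
    by_cases hei : e = i
    · exact ⟨f, fun h => hef (hei.trans h), by rw [hsw, hei]⟩
    · by_cases hfi : f = i
      · exact ⟨e, fun h => hei h.symm, by rw [hsw, hfi, swap_comm]⟩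
      · exact absurd (swap_apply_of_ne_of_ne (Ne.symm hei) (Ne.symm hfi)) hwi
  have hdb : d' ≠ b' := fun h => hw1 (hinj_s _ _ (by rw [hsw', e1, h]))
  have hdc : d' ≠ c' := fun h => hw2 (hinj_s _ _ (by rw [hsw', e2, h]))
  have hall : ∀ u, u ≠ x₀ → ψ.symm (swap x₀ u) i ≠ i := by
    intro u hu
    by_cases h1 : u = u1
    · rw [h1, e1, swap_apply_left]; exact hib.symm
    by_cases h2 : u = u2
    · rw [h2, e2, swap_apply_left]; exact hic.symm
    by_cases h3 : u = w
    · rw [h3]; exact hwi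
    rcases hK u hu h1 h2 with h | h
    · exact h
    · exfalso
      have n := hnc w u hw0 hu (Ne.symm h3)
      rw [hsw', h] at n
      exact n (swap_comm_of_disjoint hib.symm hdb.symm hic.symm hdc.symm)
  refine ⟨i, fun h hh => ?_⟩
  by_contra hne
  have hfix : ψ h x₀ = x₀ := hfixH h hh
  have hconj : ∀ u, h * ψ.symm (swap x₀ u) * h⁻¹ = ψ.symm (swap x₀ (ψ h u)) := by
    intro u
    apply ψ.injective
    rw [map_mul, map_mul, map_inv, MulEquiv.apply_symm_apply, MulEquiv.apply_symm_apply,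
      ← Equiv.swap_apply_apply, hfix]
  have hmove : ∀ u, u ≠ x₀ → ψ.symm (swap x₀ u) (h⁻¹ i) ≠ h⁻¹ i := by
    intro u hu
    have hu' : ψ h u ≠ x₀ := fun hh' => hu ((ψ h).injective (hh'.trans hfix.symm))
    have h4 := hall (ψ h u) hu'
    rw [← hconj u] at h4
    intro hcon
    apply h4
    rw [Perm.mul_apply, Perm.mul_apply, hcon, app_inv]
  obtain ⟨j, hj⟩ : ∃ j, h⁻¹ i = j := ⟨_, rfl⟩
  rw [hj] at hmove
  have hji : j ≠ i := by
    intro hji'
    apply hne
    have h5' : h (h⁻¹ i) = h i := by rw [hj, hji']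
    rw [app_inv] at h5'
    exact h5'.symm
  have hsij : ∀ u, u ≠ x₀ → ψ.symm (swap x₀ u) = swap i j := by
    intro u hu
    obtain ⟨e, f, hef, hse⟩ := hs u hu
    have hi := hall u hu
    have hjm := hmove u hu
    rw [hse] at hi hjm ⊢
    by_cases hei : e = i
    · have hfj : f = j := by
        by_contra hfj
        exact hjm (swap_apply_of_ne_of_ne (by rw [hei]; exact hji) (Ne.symm hfj))
      rw [hei, hfj]
    · have hfi : f = i := by
        by_contra hfi
        exact hi (swap_apply_of_ne_of_ne (Ne.symm hei) (Ne.symm hfi))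
      have hej : e = j := by
        by_contra hej
        exact hjm (swap_apply_of_ne_of_ne (Ne.symm hej) (by rw [hfi]; exact hji))
      rw [hfi, hej, swap_comm]
  exact hu2.2 (hinj_s _ _ ((hsij u2 hu2.1).trans (hsij u1 hu1).symm))

/-- If one swap through `x₀` pulls back to a swap, so do all of them. -/
theorem all_swap_of_one {Ω X : Type*} [DecidableEq Ω] [DecidableEq X]
    (ψ : Perm Ω ≃* Perm X) (x₀ u : X) (hu : u ≠ x₀) (a b : Ω) (hab : a ≠ b)
    (h : ψ.symm (swap x₀ u) = swap a b) (v : X) (hv : v ≠ x₀) :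
    ∃ a' b', a' ≠ b' ∧ ψ.symm (swap x₀ v) = swap a' b' := by
  by_cases huv : u = v
  · exact ⟨a, b, hab, huv ▸ h⟩
  · have hk : swap x₀ v = swap u v * swap x₀ u * (swap u v)⁻¹ := by
      rw [← Equiv.swap_apply_apply, swap_apply_of_ne_of_ne (Ne.symm hu) (Ne.symm hv),
        swap_apply_left]
    refine ⟨ψ.symm (swap u v) a, ψ.symm (swap u v) b,
      fun hh => hab ((ψ.symm (swap u v)).injective hh), ?_⟩
    rw [hk, map_mul, map_mul, map_inv, h, ← Equiv.swap_apply_apply]

/-- The coset action of `Perm Ω` on the cosets of a subgroup of index `|Ω| ≥ 5` is an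
isomorphism onto the full symmetric group of the coset space. -/
theorem coset_bij {Ω : Type*} [Fintype Ω] [DecidableEq Ω]
    (H : Subgroup (Perm Ω)) (hH : H.index = Fintype.card Ω) (h5 : 5 ≤ Fintype.card Ω) :
    Function.Bijective (MulAction.toPermHom (Perm Ω) (Perm Ω ⧸ H)) := by
  classical
  have : Fintype (Perm Ω ⧸ H) := Fintype.ofFinite _
  have hcX : Fintype.card (Perm Ω ⧸ H) = Fintype.card Ω := by
    rw [← Nat.card_eq_fintype_card, ← hH, Subgroup.index_eq_card]
  have hinj : Function.Injective (MulAction.toPermHom (Perm Ω) (Perm Ω ⧸ H)) := by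
    rw [← MonoidHom.ker_eq_bot_iff]
    by_contra hne
    have hker : (MulAction.toPermHom (Perm Ω) (Perm Ω ⧸ H)).ker = H.normalCore :=
      (Subgroup.normalCore_eq_ker H).symm
    have hnt : Nontrivial (MulAction.toPermHom (Perm Ω) (Perm Ω ⧸ H)).ker :=
      (Subgroup.nontrivial_iff_ne_bot _).mpr hne
    have hA : alternatingGroup Ω ≤ (MulAction.toPermHom (Perm Ω) (Perm Ω ⧸ H)).ker :=
      Equiv.Perm.alternatingGroup_le_of_normal (by rw [Nat.card_eq_fintype_card]; exact h5) hnt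
    have hAH : alternatingGroup Ω ≤ H := by
      rw [hker] at hA
      exact hA.trans (Subgroup.normalCore_le H)
    have h2 := Subgroup.index_antitone hAH
    have : Nontrivial Ω := Fintype.one_lt_card_iff_nontrivial.mp (by omega)
    rw [hH, alternatingGroup.index_eq_two] at h2
    omega
  rw [Fintype.bijective_iff_injective_and_card]
  exact ⟨hinj, by rw [Fintype.card_perm, Fintype.card_perm, hcX]⟩

theorem eq_of_le_of_index_eq {G : Type*} [Group G] {A B : Subgroup G} (hle : A ≤ B)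
    (h : A.index = B.index) (hne : B.index ≠ 0) : A = B := by
  have h1 := Subgroup.relIndex_mul_index hle
  rw [h] at h1
  have h2 : A.relIndex B = 1 :=
    Nat.eq_of_mul_eq_mul_right (Nat.pos_of_ne_zero hne) (by rw [h1, one_mul])
  exact le_antisymm hle (Subgroup.relIndex_eq_one.mp h2)

theorem fpf_cycleType {Ω : Type*} [Fintype Ω] [DecidableEq Ω] (h6 : Fintype.card Ω = 6)
    (t : Perm Ω) (ht2 : t * t = 1) (hf : ∀ x, t x ≠ x) :
    t.cycleType = Multiset.replicate 3 2 := by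
  have hne : t ≠ 1 := by
    intro h
    obtain ⟨x⟩ : Nonempty Ω := Fintype.card_pos_iff.mp (by omega)
    exact hf x (by rw [h]; rfl)
  have ho : orderOf t = 2 := orderOf_eq_prime (by rw [pow_two]; exact ht2) hne
  obtain ⟨n, hn⟩ := cycleType_prime_order (σ := t) (by rw [ho]; exact Nat.prime_two)
  have hs := sum_cycleType t
  have hsupp : t.support = Finset.univ := by
    ext x
    simp [hf x]
  rw [hn, hsupp, Finset.card_univ, h6, ho, Multiset.sum_replicate, smul_eq_mul] at hs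
  have hn2 : n = 2 := by omega
  rw [hn, hn2, ho]

theorem fpf_conj {Ω : Type*} [Fintype Ω] [DecidableEq Ω] (h6 : Fintype.card Ω = 6)
    (t t' : Perm Ω) (ht2 : t * t = 1) (hf : ∀ x, t x ≠ x) (ht2' : t' * t' = 1)
    (hf' : ∀ x, t' x ≠ x) : ∃ g : Perm Ω, g * t * g⁻¹ = t' := by
  have h := (isConj_iff_cycleType_eq (σ := t) (τ := t')).mpr
    (by rw [fpf_cycleType h6 t ht2 hf, fpf_cycleType h6 t' ht2' hf'])
  exact isConj_iff.mp h

/-- Sylow 5-subgroups of `S₅`: there are six of them. -/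
theorem card_sylow5 : Nat.card (Sylow 5 (Perm (Fin 5))) = 6 ∧
    ∀ P : Sylow 5 (Perm (Fin 5)), (Subgroup.normalizer (P : Set (Perm (Fin 5)))).index = 6 := by
  have hp5 : Fact (Nat.Prime 5) := ⟨by norm_num⟩
  have hG : Nat.card (Perm (Fin 5)) = 120 := by
    rw [Nat.card_eq_fintype_card, Fintype.card_perm, Fintype.card_fin]
    rfl
  obtain ⟨P⟩ : Nonempty (Sylow 5 (Perm (Fin 5))) := inferInstance
  obtain ⟨k, hk⟩ := IsPGroup.iff_card.mp P.isPGroup'
  have hmul := Subgroup.card_mul_index (P : Subgroup (Perm (Fin 5)))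
  rw [hG, hk] at hmul
  have hnd := P.not_dvd_index
  have hk1 : k = 1 := by
    have hk2 : k < 3 := by
      by_contra hk3
      push_neg at hk3
      have h125 : 5 ^ 3 ≤ 5 ^ k := Nat.pow_le_pow_right (by norm_num) hk3
      have hpos : 0 < (P : Subgroup (Perm (Fin 5))).index :=
        Nat.pos_of_ne_zero Subgroup.index_ne_zero_of_finite
      nlinarith
    interval_cases k
    · exfalso
      apply hnd
      have : (P : Subgroup (Perm (Fin 5))).index = 120 := by omega
      rw [this]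
      norm_num
    · rfl
    · omega
  rw [hk1] at hk hmul
  have hidx : (P : Subgroup (Perm (Fin 5))).index = 24 := by omega
  have hcard_dvd := P.card_dvd_index
  have hmod := card_sylow_modEq_one 5 (Perm (Fin 5))
  rw [hidx] at hcard_dvd
  have hle := Nat.le_of_dvd (by norm_num) hcard_dvd
  have hne1 : Nat.card (Sylow 5 (Perm (Fin 5))) ≠ 1 := by
    intro h1
    rw [P.card_eq_index_normalizer] at h1
    have hnorm : Subgroup.normalizer (P : Set (Perm (Fin 5))) = ⊤ := Subgroup.index_eq_one.mp h1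
    have hN : (P : Subgroup (Perm (Fin 5))).Normal := Subgroup.normalizer_eq_top_iff.mp hnorm
    have hnt : Nontrivial (P : Subgroup (Perm (Fin 5))) :=
      Finite.one_lt_card_iff_nontrivial.mp (by rw [hk]; norm_num)
    have hA := Equiv.Perm.alternatingGroup_le_of_normal (α := Fin 5) (by simp) hnt
    have h2 := Subgroup.index_antitone hA
    rw [hidx, alternatingGroup.index_eq_two] at h2
    omega
  have h6 : Nat.card (Sylow 5 (Perm (Fin 5))) = 6 := by
    unfold Nat.ModEq at hmod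
    obtain ⟨m, hm⟩ : ∃ m, Nat.card (Sylow 5 (Perm (Fin 5))) = m := ⟨_, rfl⟩
    rw [hm] at hmod hcard_dvd hle hne1 ⊢
    interval_cases m <;> omega
  refine ⟨h6, fun Q => ?_⟩
  rw [← Q.card_eq_index_normalizer]
  exact h6

/-- The exotic `S₅` in `S₆`: a subgroup of index 6 fixing no point. -/
theorem exists_exotic {Ω : Type*} [Fintype Ω] [DecidableEq Ω] (h6 : Fintype.card Ω = 6) :
    ∃ H : Subgroup (Perm Ω), H.index = 6 ∧ ∀ a : Ω, ∃ h ∈ H, h a ≠ a := by
  classical
  have hp5 : Fact (Nat.Prime 5) := ⟨by norm_num⟩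
  obtain ⟨hc, hnorm⟩ := card_sylow5
  have : Fintype (Sylow 5 (Perm (Fin 5))) := Fintype.ofFinite _
  have hinj : Function.Injective
      (MulAction.toPermHom (Perm (Fin 5)) (Sylow 5 (Perm (Fin 5)))) := by
    rw [← MonoidHom.ker_eq_bot_iff]
    by_contra hne
    have hnt : Nontrivial (MulAction.toPermHom (Perm (Fin 5)) (Sylow 5 (Perm (Fin 5)))).ker :=
      (Subgroup.nontrivial_iff_ne_bot _).mpr hne
    have hA := Equiv.Perm.alternatingGroup_le_of_normal (α := Fin 5) (by simp) hnt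
    obtain ⟨P⟩ : Nonempty (Sylow 5 (Perm (Fin 5))) := inferInstance
    have hker : (MulAction.toPermHom (Perm (Fin 5)) (Sylow 5 (Perm (Fin 5)))).ker
        ≤ Subgroup.normalizer (P : Set (Perm (Fin 5))) := by
      intro g hg
      rw [← Sylow.stabilizer_eq_normalizer, MulAction.mem_stabilizer_iff]
      have h1 : MulAction.toPermHom (Perm (Fin 5)) (Sylow 5 (Perm (Fin 5))) g = 1 := hg
      have h2 := congrArg (fun f : Perm (Sylow 5 (Perm (Fin 5))) => f P) h1
      exact h2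
    have h3 := Subgroup.index_antitone (hA.trans hker)
    rw [hnorm P, alternatingGroup.index_eq_two] at h3
    omega
  have e : Sylow 5 (Perm (Fin 5)) ≃ Ω :=
    Fintype.equivOfCardEq (by rw [h6, ← Nat.card_eq_fintype_card]; exact hc)
  refine ⟨(MulAction.toPermHom (Perm (Fin 5)) (Sylow 5 (Perm (Fin 5)))).range.map
    e.permCongrHom.toMonoidHom, ?_, ?_⟩
  · have h1 : Nat.card ((MulAction.toPermHom (Perm (Fin 5)) (Sylow 5 (Perm (Fin 5)))).range.map
        e.permCongrHom.toMonoidHom) = 120 := by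
      rw [Subgroup.card_map_of_injective e.permCongrHom.injective,
        Nat.card_congr (MonoidHom.ofInjective hinj).symm.toEquiv, Nat.card_eq_fintype_card,
        Fintype.card_perm, Fintype.card_fin]
      rfl
    have h2 := Subgroup.card_mul_index
      ((MulAction.toPermHom (Perm (Fin 5)) (Sylow 5 (Perm (Fin 5)))).range.map
        e.permCongrHom.toMonoidHom)
    rw [h1, Nat.card_eq_fintype_card, Fintype.card_perm, h6] at h2
    have h720 : Nat.factorial 6 = 720 := rfl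
    omega
  · intro a
    obtain ⟨b, hb⟩ : ∃ b : Ω, b ≠ a := by
      have : Nontrivial Ω := Fintype.one_lt_card_iff_nontrivial.mp (by omega)
      exact exists_ne a
    obtain ⟨g, hg⟩ := MulAction.exists_smul_eq (Perm (Fin 5)) (e.symm a) (e.symm b)
    refine ⟨e.permCongrHom (MulAction.toPermHom (Perm (Fin 5)) (Sylow 5 (Perm (Fin 5))) g),
      Subgroup.mem_map_of_mem _ ⟨g, rfl⟩, ?_⟩
    have h1 : e.permCongrHom (MulAction.toPermHom (Perm (Fin 5)) (Sylow 5 (Perm (Fin 5))) g) a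
        = e (g • e.symm a) := rfl
    rw [h1, hg, Equiv.apply_symm_apply]
    exact hb

/-- Two point-free subgroups of index 6 in `S₆` are conjugate. -/
theorem conj_of_nofix {Ω : Type*} [Fintype Ω] [DecidableEq Ω] (h6 : Fintype.card Ω = 6)
    (H H' : Subgroup (Perm Ω)) (hH : H.index = 6) (hH' : H'.index = 6)
    (hnf : ∀ a : Ω, ∃ h ∈ H, h a ≠ a) (hnf' : ∀ a : Ω, ∃ h ∈ H', h a ≠ a) :
    ∃ g : Perm Ω, H.map (MulAut.conj g).toMonoidHom = H' := by
  classical
  have : Fintype (Perm Ω ⧸ H) := Fintype.ofFinite _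
  have : Fintype (Perm Ω ⧸ H') := Fintype.ofFinite _
  have hcX : Fintype.card (Perm Ω ⧸ H) = 6 := by
    rw [← Nat.card_eq_fintype_card, ← hH, Subgroup.index_eq_card]
  have hcX' : Fintype.card (Perm Ω ⧸ H') = 6 := by
    rw [← Nat.card_eq_fintype_card, ← hH', Subgroup.index_eq_card]
  obtain ⟨φ, hφ⟩ : ∃ φ : Perm Ω ≃* Perm (Perm Ω ⧸ H), ∀ g x, φ g x = g • x :=
    ⟨MulEquiv.ofBijective _ (coset_bij H (by rw [hH, h6]) (by omega)), fun g x => rfl⟩
  obtain ⟨φ', hφ'⟩ : ∃ φ' : Perm Ω ≃* Perm (Perm Ω ⧸ H'), ∀ g x, φ' g x = g • x :=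
    ⟨MulEquiv.ofBijective _ (coset_bij H' (by rw [hH', h6]) (by omega)), fun g x => rfl⟩
  -- the base points
  have hbase : ∀ h ∈ H, φ h (QuotientGroup.mk 1) = QuotientGroup.mk 1 := by
    intro h hh
    rw [hφ, MulAction.Quotient.smul_mk, QuotientGroup.eq]
    simpa using hh
  have hbase' : ∀ h ∈ H', φ' h (QuotientGroup.mk 1) = QuotientGroup.mk 1 := by
    intro h hh
    rw [hφ', MulAction.Quotient.smul_mk, QuotientGroup.eq]
    simpa using hh
  -- the swaps through the base point pull back to fixed-point-free involutions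
  have key : ∀ (K : Subgroup (Perm Ω)) [Fintype (Perm Ω ⧸ K)]
      (ψ : Perm Ω ≃* Perm (Perm Ω ⧸ K)), Fintype.card (Perm Ω ⧸ K) = 6 →
      (∀ h ∈ K, ψ h (QuotientGroup.mk 1) = QuotientGroup.mk 1) →
      (∀ a : Ω, ∃ h ∈ K, h a ≠ a) →
      ∀ u : Perm Ω ⧸ K, u ≠ QuotientGroup.mk 1 →
        (ψ.symm (swap (QuotientGroup.mk 1) u) * ψ.symm (swap (QuotientGroup.mk 1) u) = 1 ∧
          ∀ x, ψ.symm (swap (QuotientGroup.mk 1) u) x ≠ x) := by
    intro K _ ψ hc hb hn u hu
    have hsq : ψ.symm (swap (QuotientGroup.mk 1) u) * ψ.symm (swap (QuotientGroup.mk 1) u) = 1 := by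
      rw [← map_mul, swap_mul_self, map_one]
    refine ⟨hsq, ?_⟩
    have hdich : ∀ v : Perm Ω ⧸ K, v ≠ QuotientGroup.mk 1 →
        (∃ a b, a ≠ b ∧ ψ.symm (swap (QuotientGroup.mk 1) v) = swap a b) ∨
          ∀ x, ψ.symm (swap (QuotientGroup.mk 1) v) x ≠ x := by
      intro v hv
      apply swap_or_fpf
      · intro h1
        have h2 : swap (QuotientGroup.mk 1 : Perm Ω ⧸ K) v = 1 := by
          have := congrArg ψ h1
          simpa using this
        exact hv (swap_eq_one_iff.mp h2).symm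
      · rw [← map_mul, swap_mul_self, map_one]
      · intro y
        have h3 := orderOf_swap_mul_conj_le (Ne.symm hv) (ψ y)
        have e : ψ.symm (swap (QuotientGroup.mk 1) v * (ψ y * swap (QuotientGroup.mk 1) v * (ψ y)⁻¹))
            = ψ.symm (swap (QuotientGroup.mk 1) v)
              * (y * ψ.symm (swap (QuotientGroup.mk 1) v) * y⁻¹) := by
          simp [map_mul, map_inv]
        rw [← e, MulEquiv.orderOf_eq]
        exact h3
    rcases hdich u hu with ⟨a, b, hab, hsw⟩ | hfpf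
    · exfalso
      obtain ⟨i, hi⟩ := main_aux' (by omega) ψ (QuotientGroup.mk 1) K hb
        (fun v hv => all_swap_of_one ψ _ u hu a b hab hsw v hv)
      obtain ⟨h, hh, hne⟩ := hn i
      exact hne (hi h hh)
    · exact hfpf
  -- a swap through the base point of `H'` corresponds to a swap for `H`
  obtain ⟨u1, hu1⟩ := exists_notMem ({QuotientGroup.mk 1} : Finset (Perm Ω ⧸ H))
    (by rw [Finset.card_singleton]; omega)
  rw [Finset.mem_singleton] at hu1
  obtain ⟨hsq1, hf1⟩ := key H φ hcX hbase hnf u1 hu1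
  have hs : ∀ u : Perm Ω ⧸ H', u ≠ QuotientGroup.mk 1 → ∃ a b : Perm Ω ⧸ H, a ≠ b ∧
      (φ.symm.trans φ').symm (swap (QuotientGroup.mk 1) u) = swap a b := by
    intro u hu
    obtain ⟨hsq, hf⟩ := key H' φ' hcX' hbase' hnf' u hu
    obtain ⟨g, hg⟩ := fpf_conj h6 _ _ hsq1 hf1 hsq hf
    refine ⟨φ g (QuotientGroup.mk 1), φ g u1, fun hh => hu1 ((φ g).injective hh).symm, ?_⟩
    have h1 : (φ.symm.trans φ').symm (swap (QuotientGroup.mk 1) u)
        = φ (φ'.symm (swap (QuotientGroup.mk 1) u)) := rfl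
    rw [h1, ← hg, map_mul, map_mul, map_inv, MulEquiv.apply_symm_apply,
      ← Equiv.swap_apply_apply]
  obtain ⟨y, hy⟩ := main_aux' (by omega) (φ.symm.trans φ') (QuotientGroup.mk 1)
    (H'.map φ.toMonoidHom) (by
      rintro k ⟨h', hh', rfl⟩
      have h1 : (φ.symm.trans φ') (φ.toMonoidHom h') = φ' h' := by
        show φ' (φ.symm (φ h')) = φ' h'
        rw [MulEquiv.symm_apply_apply]
      rw [h1]
      exact hbase' h' hh') hs
  obtain ⟨g, rfl⟩ := QuotientGroup.mk_surjective y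
  refine ⟨g, ?_⟩
  symm
  apply eq_of_le_of_index_eq
  · intro h' hh'
    have h1 := hy (φ.toMonoidHom h') (Subgroup.mem_map_of_mem _ hh')
    have h2 : φ h' (QuotientGroup.mk g) = QuotientGroup.mk g := h1
    rw [hφ, MulAction.Quotient.smul_mk, QuotientGroup.eq] at h2
    rw [Subgroup.mem_map]
    refine ⟨g⁻¹ * h' * g, ?_, ?_⟩
    · have h3 := H.inv_mem h2
      simpa [smul_eq_mul, mul_assoc] using h3
    · simp [MulAut.conj_apply, mul_assoc]
  · rw [hH']
    have := Subgroup.index_map_equiv H (MulAut.conj g)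
    rw [hH] at this
    exact this.symm
  · have := Subgroup.index_map_equiv H (MulAut.conj g)
    rw [hH] at this
    intro h0
    have h00 : (Subgroup.map (MulAut.conj g).toMonoidHom H).index = 6 := this
    omega

end Cfsg.Agent.Helper16.SymIndex
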